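import Cfsg.Agent.Lib.Geometric.Orth.Perp

/-!
A non-degenerate subspace of even dimension admits a linear map into itself negating the form;
hence a space `P ⊥ gP` has plus type.
-/

namespace CfsgLib.Geometric.Orth

open Matrix QuadraticMap CfsgLib.ClassicalForms

variable {ι : Type} [Fintype ι] [DecidableEq ι] {F : Type*} [Field F] [Finite F]
variable {Q : QuadraticForm F (ι → F)}

omit [DecidableEq ι] in
lemma exists_anti {P : Submodule F (ι → F)}
    (hP : Cfsg.Geo.IsNondegenerateOn (polar (⇑Q)) P) (hev : Even (Module.finrank F P)) :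
    ∃ σ : P →ₗ[F] (ι → F), ∀ p, σ p ∈ P ∧ Q (σ p) = -Q p := by
  classical
  by_cases h2 : (2 : F) = 0
  · refine ⟨P.subtype, fun p => ⟨p.2, ?_⟩⟩
    have h : (2 : F) * Q p = 0 := by rw [h2, zero_mul]
    exact eq_neg_of_add_eq_zero_left (by rw [two_mul] at h; exact h)
  have : Invertible (2 : F) := invertibleOfNonzero h2
  have := Fintype.ofFinite F
  obtain ⟨j, hj⟩ := hev
  set B : LinearMap.BilinForm F P := LinearMap.BilinForm.restrict (polarBilin Q) P with hB
  obtain ⟨v, hv⟩ := LinearMap.BilinForm.exists_orthogonal_basis (B := B)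
    ⟨fun a b => polar_comm _ (a : ι → F) b⟩
  set b := v.reindex ((finCongr (show Module.finrank F P = j * 2 by omega)).trans
    finProdFinEquiv.symm) with hb
  have horth : ∀ i k, i ≠ k → polar Q (b i : ι → F) (b k) = 0 := fun i k hik => by
    rw [hb, Module.Basis.reindex_apply, Module.Basis.reindex_apply]
    exact hv fun h => hik ((Equiv.injective _) h)
  have hval : ∀ i, Q (b i : ι → F) ≠ 0 := by
    intro i hi
    have hne : (b i : ι → F) ≠ 0 := by simpa using b.ne_zero i
    obtain ⟨x, hx, hxb⟩ := (hP _ (b i).2 hne).2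
    refine hxb ?_
    have h0 : (polarBilin Q (b i : ι → F)).comp P.subtype = 0 := b.ext fun k => by
      by_cases hik : i = k
      · subst hik
        simp [polar_self_mul, hi]
      · simpa using horth i k hik
    exact LinearMap.congr_fun h0 ⟨x, hx⟩
  have hodd : Fintype.card F % 2 = 1 := by
    refine FiniteField.odd_card_of_char_ne_two fun hc => h2 ?_
    have : ((ringChar F : ℕ) : F) = 0 := ringChar.Nat.cast_ringChar
    rw [hc] at this
    exact_mod_cast this
  have hxy : ∀ i : Fin j, ∃ xy : F × F, Q (b (i, 0) : ι → F) * xy.1 ^ 2 +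
      Q (b (i, 1) : ι → F) * xy.2 ^ 2 = -Q (b (i, 0) : ι → F) := fun i => by
    obtain ⟨x, y, h⟩ := FiniteField.exists_root_sum_quadratic
      (f := Polynomial.C (Q (b (i, 0) : ι → F)) * Polynomial.X ^ 2)
      (g := Polynomial.C (Q (b (i, 1) : ι → F)) * Polynomial.X ^ 2 -
        Polynomial.C (-Q (b (i, 0) : ι → F)))
      (Polynomial.degree_C_mul_X_pow 2 (hval _))
      (by rw [Polynomial.degree_sub_C]
          · exact Polynomial.degree_C_mul_X_pow 2 (hval _)
          · rw [Polynomial.degree_C_mul_X_pow 2 (hval _)]; norm_num)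
      hodd
    refine ⟨(x, y), ?_⟩
    simp at h
    linear_combination h
  choose xy hxy using hxy
  let img : Fin j × Fin 2 → P := fun i =>
    if i.2 = 0 then (xy i.1).1 • b (i.1, 0) + (xy i.1).2 • b (i.1, 1)
    else (-(Q (b (i.1, 1) : ι → F) * (Q (b (i.1, 0) : ι → F))⁻¹ * (xy i.1).2)) • b (i.1, 0)
      + (xy i.1).1 • b (i.1, 1)
  let σ : P →ₗ[F] P := b.constr F img
  refine ⟨P.subtype.comp σ, fun p => ⟨(σ p).2, ?_⟩⟩
  have hσ : ∀ i, σ (b i) = img i := fun i => b.constr_basis F img i
  have h : ∀ i k, polar Q (img i : ι → F) (img k) = -polar Q (b i : ι → F) (b k) := by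
    rintro ⟨i, s⟩ ⟨k, t⟩
    by_cases hik : i = k
    · subst hik
      have h01 := horth (i, 0) (i, 1) (by simp)
      have h10 := horth (i, 1) (i, 0) (by simp)
      have ha := hval (i, 0)
      have e := hxy i
      fin_cases s <;> fin_cases t <;>
        simp [img, polar_add_left, polar_add_right, polar_smul_left, polar_smul_right,
          polar_self_mul, h01, h10, QuadraticMap.map_add (⇑Q), QuadraticMap.map_smul,
          QuadraticMap.map_neg, polar_neg_left, polar_neg_right]
      · linear_combination (2 : F) * e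
      · field_simp; ring
      · field_simp; ring
      · field_simp
        linear_combination (Q (b (i, 1) : ι → F)) * e
    · have hne : ∀ u w : Fin 2, polar Q (b (i, u) : ι → F) (b (k, w)) = 0 :=
        fun u w => horth _ _ (by simp [hik])
      fin_cases s <;> fin_cases t <;>
        simp [img, polar_add_left, polar_add_right, polar_smul_left, polar_smul_right, hne]
  have hlin : (polarBilin Q).compl₁₂ (P.subtype.comp σ) (P.subtype.comp σ) =
      -(polarBilin Q).compl₁₂ P.subtype P.subtype :=
    LinearMap.ext_basis b b fun i k => by simpa [hσ] using h i k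
  have h' := LinearMap.congr_fun (LinearMap.congr_fun hlin p) p
  simp [polar_self_mul] at h'
  exact mul_left_cancel₀ h2 (by simpa using h')

/-- If an isometry maps `P` orthogonally to itself, `P ⊕ gP` has a totally singular half. -/
lemma exists_singular_half {P W : Submodule F (ι → F)}
    (hP : Cfsg.Geo.IsNondegenerateOn (polar (⇑Q)) P) (hev : Even (Module.finrank F P))
    (hWP : ∀ w ∈ W, ∀ p ∈ P, polar Q w p = 0) (hdis : ∀ x, x ∈ W → x ∈ P → x = 0)
    {g : GL ι F} (hg : g ∈ Cfsg.isometryGroup F (⇑Q)) (hgP : ∀ p ∈ P, ap g p ∈ W) :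
    ∃ U : Submodule F (ι → F), (∀ x ∈ U, Q x = 0) ∧
      Module.finrank F U = Module.finrank F P := by
  obtain ⟨σ, hσ⟩ := exists_anti hP hev
  set f : P →ₗ[F] (ι → F) := P.subtype + (apEquiv g).toLinearMap.comp σ with hf
  refine ⟨LinearMap.range f, ?_, LinearMap.finrank_range_of_inj ?_⟩
  · rintro _ ⟨p, rfl⟩
    show Q ((p : ι → F) + ap g (σ p)) = 0
    rw [QuadraticMap.map_add (⇑Q), mem_isometryGroup_iff.mp hg, (hσ p).2, polar_comm,
      hWP _ (hgP _ (hσ p).1) _ p.2]
    ring
  · rw [injective_iff_map_eq_zero]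
    intro p hp
    have h : (p : ι → F) + ap g (σ p) = 0 := hp
    have h1 : (p : ι → F) ∈ W := by
      rw [eq_neg_of_add_eq_zero_left h]
      exact W.neg_mem (hgP _ (hσ p).1)
    exact Subtype.ext (hdis _ h1 p.2)

end CfsgLib.Geometric.Orth
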