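import Cfsg.Agent.Lib.Geometric.Orth.Singular
import Cfsg.Agent.Lib.ClassicalForms.Ortho.Index

/-!
Subgroups of `omegaGL` containing, for a singular vector, all the Siegel elements centred at it:
such a vector is called full; when all singular vectors are full the subgroup is everything.
-/

namespace CfsgLib.Geometric.Orth

open Matrix QuadraticMap CfsgLib.ClassicalForms

variable {ι : Type} [Fintype ι] [DecidableEq ι] {F : Type*} [Field F]
variable {Q : QuadraticForm F (ι → F)}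

lemma orthToGL_range : (orthToGL Q).range = Cfsg.isometryGroup F (⇑Q) := by
  refine le_antisymm ?_ fun g hg => ?_
  · rintro _ ⟨g, rfl⟩
    exact orthToGL_mem g
  · refine ⟨⟨apEquiv g, fun x => mem_isometryGroup_iff.mp hg x⟩, gl_ext fun x => ?_⟩
    change ap (ofEquiv (apEquiv g)) x = _
    rw [ap_ofEquiv, apEquiv_apply]

lemma reflGroup_eq_top' [Finite F] (hQ : Nondeg Q) (hn : 5 ≤ Fintype.card ι) :
    reflGroup Q = ⊤ := by
  have hnd : (QuadraticMap.polarBilin Q).Nondegenerate := nondeg_iff_polarBilin.mpr hQ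
  have h := CfsgLib.Forms.reflClosure_eq_top (Q := Q) hnd (Or.inr (by omega))
  rw [eq_top_iff]
  rintro g -
  obtain ⟨g', rfl⟩ := (isoMat Q (f := ⇑Q) fun _ => rfl).surjective g
  have hg : g' ∈ CfsgLib.Forms.reflClosure Q := h ▸ Subgroup.mem_top g'
  induction hg using Subgroup.closure_induction with
  | mem x hx =>
    obtain ⟨v, hv, rfl⟩ := hx
    rw [isoMat_orthGen_refl]
    exact refl_mem_reflGroup v hv
  | one => rw [map_one]; exact one_mem _
  | mul x y _ _ hx hy => rw [map_mul]; exact mul_mem hx hy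
  | inv x _ hx => rw [map_inv]; exact inv_mem hx

lemma omegaGL_eq_map [Finite F] (hQ : Nondeg Q) (hn : 5 ≤ Fintype.card ι) :
    Cfsg.Geo.omegaGL (⇑Q) = (siegelGroup Q).map (orthToGL Q) := by
  rw [← commutator_eq_siegelGroup hQ (by simpa using hn)
      (IsGen.of_reflGroup (reflGroup_eq_top' hQ hn)), omegaGL_eq, commutator_def,
    Subgroup.map_commutator, ← MonoidHom.range_eq_map, orthToGL_range]

lemma orthToGL_mem_omega' [Finite F] (hQ : Nondeg Q) (hn : 5 ≤ Fintype.card ι) {g : orth Q}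
    (hg : g ∈ siegelGroup Q) : orthToGL Q g ∈ Cfsg.Geo.omegaGL (⇑Q) :=
  orthToGL_mem_omega (siegelGroup_le_commutator hQ (by simpa using hn) hg)

lemma ap_orthToGL (g : orth Q) (x : ι → F) : ap (orthToGL Q g) x = (g : (ι → F) ≃ₗ[F] (ι → F)) x :=
  ap_ofEquiv _ x

/-- All Siegel elements centred at `u` lie in `M`. -/
def Full (Q : QuadraticForm F (ι → F)) (M : Subgroup (GL ι F)) (u : ι → F) : Prop :=
  ∀ (hu : Q u = 0) (w : ι → F) (hw : polar Q u w = 0), sg Q u w hu hw ∈ M

lemma sg_congr {u u' w w' : ι → F} (h₁ : u = u') (h₂ : w = w') (hu : Q u = 0)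
    (hw : polar Q u w = 0) :
    sg Q u w hu hw = sg Q u' w' (h₁ ▸ hu) (by rw [← h₁, ← h₂]; exact hw) := by
  subst h₁ h₂; rfl

lemma conj_sg {g : GL ι F} (hg : g ∈ Cfsg.isometryGroup F (⇑Q)) {u w : ι → F} (hu : Q u = 0)
    (hw : polar Q u w = 0) :
    g * sg Q u w hu hw * g⁻¹ =
      sg Q (ap g u) (ap g w) (by rw [mem_isometryGroup_iff.mp hg, hu])
        (by rw [polar_ap hg, hw]) := by
  refine gl_ext fun x => ?_
  obtain ⟨y, rfl⟩ : ∃ y, x = ap g y := ⟨ap g⁻¹ x, (ap_ap_inv g x).symm⟩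
  rw [ap_mul, ap_mul, ap_inv_ap, ap_sg, ap_sg, mem_isometryGroup_iff.mp hg, polar_ap hg,
    polar_ap hg, ap_sub, ap_add, ap_smul, ap_smul]

lemma Full.ap {M : Subgroup (GL ι F)} (hM : M ≤ Cfsg.isometryGroup F (⇑Q)) {g : GL ι F}
    (hg : g ∈ M) {u : ι → F} (hu : Full Q M u) : Full Q M (ap g u) := by
  intro hgu w hw
  have h0 : Q u = 0 := by rw [← mem_isometryGroup_iff.mp (hM hg) u]; exact hgu
  have hw' : polar Q u (Geometric.ap g⁻¹ w) = 0 := by
    rw [← polar_ap (hM hg) u, ap_ap_inv]; exact hw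
  have h := mul_mem (mul_mem hg (hu h0 _ hw')) (inv_mem hg)
  rw [conj_sg (hM hg)] at h
  convert h using 2
  rw [ap_ap_inv]

lemma Full.smul {M : Subgroup (GL ι F)} {u : ι → F} (hu : Full Q M u) (c : F) :
    Full Q M (c • u) := by
  intro hcu w hw
  by_cases hc : c = 0
  · have h : sg Q (c • u) w hcu hw = 1 := gl_ext fun x => by
      rw [ap_sg, ap_one]; subst hc; simp
    rw [h]; exact one_mem M
  have h0 : Q u = 0 := by
    simpa [QuadraticMap.map_smul, hc] using hcu
  have hw0 : polar Q u w = 0 := by simpa [polar_smul_left, hc] using hw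
  have h : sg Q (c • u) w hcu hw = sg Q u (c • w) h0 (by simp [polar_smul_right, hw0]) := by
    refine gl_ext fun x => ?_
    rw [ap_sg, ap_sg]
    simp only [QuadraticMap.map_smul, polar_smul_right, smul_eq_mul]
    module
  rw [h]; exact hu h0 _ _

lemma Full.of_forall {M : Subgroup (GL ι F)} [Finite F] (hQ : Nondeg Q) (hn : 5 ≤ Fintype.card ι)
    (h : ∀ u, Q u = 0 → Full Q M u) : Cfsg.Geo.omegaGL (⇑Q) ≤ M := by
  rw [omegaGL_eq_map hQ hn, Subgroup.map_le_iff_le_comap, siegelGroup, Subgroup.closure_le]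
  rintro _ ⟨u, w, hu, hw, rfl⟩
  exact h u hu hu w hw

/-- The Siegel element of `y` and `v - u` moves `u` to `v` when both pair to one with `y`. -/
lemma ap_sg_move {y u v : ι → F} (hy : Q y = 0) (hu : Q u = 0) (hv : Q v = 0)
    (h₁ : polar Q y u = 1) (h₂ : polar Q y v = 1) (h : polar Q y (v - u) = 0) :
    ap (sg Q y (v - u) hy h) u = v := by
  rw [ap_sg, map_sub_eq, hu, hv, polar_sub_right, polar_comm Q u y, h₁, polar_comm Q v u,
    polar_self_mul, hu]
  match_scalars <;> ring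

lemma Full.of_one {M : Subgroup (GL ι F)} (hM : M ≤ Cfsg.isometryGroup F (⇑Q)) {y u v : ι → F}
    (hy : Full Q M y) (hu : Full Q M u) (hQy : Q y = 0) (hQu : Q u = 0) (hQv : Q v = 0)
    (hyu : polar Q y u ≠ 0) (hyv : polar Q y v ≠ 0) : Full Q M v := by
  set u' := (polar Q y u)⁻¹ • u
  set v' := (polar Q y v)⁻¹ • v with hv'
  have h1 : polar Q y u' = 1 := by simp [u', polar_smul_right, hyu]
  have h2 : polar Q y v' = 1 := by simp [v', polar_smul_right, hyv]
  have hu0 : Q u' = 0 := by simp [u', QuadraticMap.map_smul, hQu]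
  have hv0 : Q v' = 0 := by simp [v', QuadraticMap.map_smul, hQv]
  have hd : polar Q y (v' - u') = 0 := by rw [polar_sub_right, h1, h2, sub_self]
  have hm := Full.ap hM (hy hQy _ hd) (hu.smul (polar Q y u)⁻¹)
  rw [ap_sg_move hQy hu0 hv0 h1 h2] at hm
  have := hm.smul (polar Q y v)
  rwa [hv', smul_smul, mul_inv_cancel₀ hyv, one_smul] at this

/-- Two non-orthogonal full singular vectors make every singular vector full. -/
theorem Full.all [Finite F] (hQ : Nondeg Q) {M : Subgroup (GL ι F)}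
    (hM : M ≤ Cfsg.isometryGroup F (⇑Q)) {y u : ι → F} (hy : Full Q M y) (hu : Full Q M u)
    (hQy : Q y = 0) (hQu : Q u = 0) (hyu : polar Q y u ≠ 0) {v : ι → F} (hQv : Q v = 0) :
    Full Q M v := by
  by_cases h : polar Q y v = 0
  swap
  · exact Full.of_one hM hy hu hQy hQu hQv hyu h
  by_cases hsp : v ∈ Submodule.span F {y}
  · obtain ⟨c, rfl⟩ := Submodule.mem_span_singleton.mp hsp
    exact hy.smul c
  have hy0 : y ≠ 0 := fun h0 => hyu (by simp [h0])
  obtain ⟨z, -, hQz, hzy, hzv⟩ := (Sec.top Q).exists_common hQ (Sec.mem_top y) (Sec.mem_top v)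
    hQy h hy0 fun c hc => hsp (Submodule.mem_span_singleton.mpr ⟨c, hc.symm⟩)
  have hyz : polar Q y z ≠ 0 := by rw [polar_comm, hzy]; exact one_ne_zero
  have hz : Full Q M z := Full.of_one hM hy hu hQy hQu hQz hyu hyz
  refine Full.of_one hM hz hy hQz hQy hQv (by rw [hzy]; exact one_ne_zero)
    (by rw [hzv]; exact one_ne_zero)

/-- Two non-orthogonal full singular vectors force the whole of `omegaGL`. -/
theorem Full.le_of_pair [Finite F] (hQ : Nondeg Q) (hn : 5 ≤ Fintype.card ι)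
    {M : Subgroup (GL ι F)} (hM : M ≤ Cfsg.isometryGroup F (⇑Q)) {y u : ι → F}
    (hy : Full Q M y) (hu : Full Q M u) (hQy : Q y = 0) (hQu : Q u = 0)
    (hyu : polar Q y u ≠ 0) : Cfsg.Geo.omegaGL (⇑Q) ≤ M :=
  Full.of_forall hQ hn fun _ hv => Full.all hQ hM hy hu hQy hQu hyu hv

end CfsgLib.Geometric.Orth
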