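import Cfsg.Agent.Lib.Geometric.Centres
import Cfsg.Agent.Lib.ClassicalForms.Ortho.Omega
import Cfsg.Agent.Lib.Forms.OrthRefl
import Cfsg.Agent.Lib.Forms.Dickson
import Cfsg.Agent.Lib.Classes.SingularParity

/-!
The group `omegaGL` of a quadratic form as a subgroup of `GL ι F`: its Siegel elements and the
families of maximal singular subspaces.
-/

namespace CfsgLib.Geometric.Orth

open Matrix QuadraticMap

variable {ι : Type} [Fintype ι] [DecidableEq ι] {F : Type*} [Field F]

/-- A non-degenerate quadratic form given as a function, bundled. -/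
def toQF {Q : (ι → F) → F} (hQ : Cfsg.Geo.IsNondegenerateQuadraticForm Q) :
    QuadraticForm F (ι → F) :=
  QuadraticMap.ofPolar Q (fun a x => by rw [hQ.smul, smul_eq_mul]; ring)
    hQ.polar_bilinear.add_left hQ.polar_bilinear.smul_left

lemma coe_toQF {Q : (ι → F) → F} (hQ : Cfsg.Geo.IsNondegenerateQuadraticForm Q) :
    ⇑(toQF hQ) = Q := rfl

lemma nondeg_toQF {Q : (ι → F) → F} (hQ : Cfsg.Geo.IsNondegenerateQuadraticForm Q) :
    CfsgLib.ClassicalForms.Nondeg (toQF hQ) := fun x hx => by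
  by_contra h
  obtain ⟨y, hy⟩ := (hQ.nondegenerate x h).2
  exact hy (hx y)

variable {Q : QuadraticForm F (ι → F)}

lemma mem_isometryGroup_iff {g : GL ι F} :
    g ∈ Cfsg.isometryGroup F (⇑Q) ↔ ∀ x, Q (ap g x) = Q x :=
  ⟨fun h x => h x x, fun h u _ => h u⟩

lemma polar_ap {g : GL ι F} (hg : g ∈ Cfsg.isometryGroup F (⇑Q)) (x y : ι → F) :
    polar Q (ap g x) (ap g y) = polar Q x y := by
  simp only [polar, ← ap_add, (mem_isometryGroup_iff).mp hg]

lemma omegaGL_eq :
    Cfsg.Geo.omegaGL (⇑Q) = ⁅Cfsg.isometryGroup F (⇑Q), Cfsg.isometryGroup F (⇑Q)⁆ := by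
  rw [Cfsg.Geo.omegaGL, Cfsg.Omega, commutator_def, Subgroup.map_commutator,
    ← MonoidHom.range_eq_map, Subgroup.range_subtype]

lemma omegaGL_le : Cfsg.Geo.omegaGL (⇑Q) ≤ Cfsg.isometryGroup F (⇑Q) :=
  Subgroup.map_subtype_le _

lemma isometry_of_mem {g : GL ι F} (hg : g ∈ Cfsg.Geo.omegaGL (⇑Q)) (x : ι → F) :
    Q (ap g x) = Q x :=
  (mem_isometryGroup_iff).mp (omegaGL_le hg) x

/-- Isometries of `ι → F` as invertible matrices. -/
def orthToGL (Q : QuadraticForm F (ι → F)) : CfsgLib.ClassicalForms.orth Q →* GL ι F where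
  toFun g := ofEquiv (g : (ι → F) ≃ₗ[F] (ι → F))
  map_one' := gl_ext fun x => by simp [CfsgLib.ClassicalForms.orth_one_apply]
  map_mul' g h := gl_ext fun x => by simp [ap_mul, CfsgLib.ClassicalForms.orth_mul_apply]

lemma orthToGL_mem (g : CfsgLib.ClassicalForms.orth Q) :
    orthToGL Q g ∈ Cfsg.isometryGroup F (⇑Q) :=
  mem_isometryGroup_iff.mpr fun x => by
    change Q (ap (ofEquiv _) x) = Q x
    rw [ap_ofEquiv]
    exact CfsgLib.ClassicalForms.orth_apply g x

lemma orthToGL_mem_omega {g : CfsgLib.ClassicalForms.orth Q}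
    (hg : g ∈ commutator (CfsgLib.ClassicalForms.orth Q)) :
    orthToGL Q g ∈ Cfsg.Geo.omegaGL (⇑Q) := by
  rw [omegaGL_eq]
  have h : (orthToGL Q).range ≤ Cfsg.isometryGroup F (⇑Q) := by
    rintro _ ⟨g, rfl⟩
    exact orthToGL_mem g
  refine Subgroup.commutator_mono h h ?_
  rw [MonoidHom.range_eq_map, ← Subgroup.map_commutator]
  exact ⟨g, hg, rfl⟩

/-- The Siegel element of a singular vector `u` and a vector `w` orthogonal to it. -/
def sg (Q : QuadraticForm F (ι → F)) (u w : ι → F) (hu : Q u = 0) (hw : polar Q u w = 0) :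
    GL ι F :=
  orthToGL Q (CfsgLib.ClassicalForms.siegel Q u w hu hw)

lemma ap_sg {u w : ι → F} (hu : Q u = 0) (hw : polar Q u w = 0) (x : ι → F) :
    ap (sg Q u w hu hw) x =
      x + polar Q x u • w - (polar Q x w + Q w * polar Q x u) • u := by
  change ap (ofEquiv _) x = _
  rw [ap_ofEquiv]
  exact CfsgLib.ClassicalForms.siegel_apply u w hu hw x

lemma sg_mem [Finite F] (hQ : CfsgLib.ClassicalForms.Nondeg Q) (hn : 5 ≤ Fintype.card ι)
    {u w : ι → F} (hu : Q u = 0) (hw : polar Q u w = 0) :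
    sg Q u w hu hw ∈ Cfsg.Geo.omegaGL (⇑Q) :=
  orthToGL_mem_omega (CfsgLib.ClassicalForms.siegel_mem_commutator hQ
    (by rwa [Module.finrank_fintype_fun_eq_card]) hu hw)

lemma ap_sg_fix {u w : ι → F} (hu : Q u = 0) (hw : polar Q u w = 0) {x : ι → F}
    (hxu : polar Q x u = 0) (hxw : polar Q x w = 0) : ap (sg Q u w hu hw) x = x := by
  rw [ap_sg, hxu, hxw]
  module

/-- An element of `omegaGL` keeps each family of maximal singular subspaces. -/
theorem relSign_map [Finite F] (hQ : CfsgLib.ClassicalForms.Nondeg Q) (hn : 5 ≤ Fintype.card ι)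
    {g : GL ι F} (hg : g ∈ Cfsg.Geo.omegaGL (⇑Q)) {U W : Submodule F (ι → F)}
    (hU : CfsgLib.Classes.IsMaxSingular Q U) (hW : CfsgLib.Classes.IsMaxSingular Q W) :
    CfsgLib.Classes.relSign U (W.map (apEquiv g).toLinearMap) =
      CfsgLib.Classes.relSign U W := by
  obtain ⟨G, hG, rfl⟩ := hg
  have hnd : (QuadraticMap.polarBilin Q).Nondegenerate :=
    CfsgLib.ClassicalForms.nondeg_iff_polarBilin.mpr hQ
  have hgen := CfsgLib.Forms.reflClosure_eq_top (Q := Q) hnd (Or.inr (by omega))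
  have h1 : CfsgLib.Forms.dicksonSign G = 1 := by
    let φ : Cfsg.isometryGroup F (⇑Q) →* ℤˣ :=
      { toFun := CfsgLib.Forms.dicksonSign
        map_one' := CfsgLib.Forms.dicksonSign_one
        map_mul' := CfsgLib.Forms.dicksonSign_mul hnd hgen }
    exact Abelianization.commutator_subset_ker φ hG
  have h2 := CfsgLib.Classes.relSign_mapSub hnd hgen hU hW G
  rw [h1, one_mul] at h2
  refine Eq.trans ?_ h2
  congr 1

end CfsgLib.Geometric.Orth
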