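import Cfsg.Agent.Lib.Geometric.Orth.SingularStab

/-!
The orthogonal complement of a subspace on which the polar form is non-degenerate, as a section.
-/

namespace CfsgLib.Geometric.Orth

open Matrix QuadraticMap CfsgLib.ClassicalForms

variable {ι : Type} [Fintype ι] [DecidableEq ι] {F : Type*} [Field F]
variable {Q : QuadraticForm F (ι → F)}

/-- The orthogonal complement of `W` for the polar form. -/
def perpW (Q : QuadraticForm F (ι → F)) (W : Submodule F (ι → F)) : Submodule F (ι → F) :=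
  LinearMap.BilinForm.orthogonal (polarBilin Q) W

omit [DecidableEq ι] [Fintype ι] in
lemma mem_perpW {W : Submodule F (ι → F)} {x : ι → F} :
    x ∈ perpW Q W ↔ ∀ y ∈ W, polar Q y x = 0 := Iff.rfl

variable {W : Submodule F (ι → F)} (hW : Cfsg.Geo.IsNondegenerateOn (polar (⇑Q)) W)
include hW

omit [DecidableEq ι] in
lemma isCompl_perpW : IsCompl W (perpW Q W) := by
  have hsymm : ∀ a b, polarBilin Q a b = polarBilin Q b a := fun a b => polar_comm _ a b
  refine LinearMap.BilinForm.isCompl_orthogonal_of_restrict_nondegenerate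
    (fun a b h => (hsymm b a).trans h) ⟨fun a ha => ?_, fun a ha => ?_⟩
  · by_contra hne
    obtain ⟨x, hx, hxa⟩ := (hW a a.2 (by simpa using hne)).2
    exact hxa (ha ⟨x, hx⟩)
  · by_contra hne
    obtain ⟨x, hx, hxa⟩ := (hW a a.2 (by simpa using hne)).1
    exact hxa (ha ⟨x, hx⟩)

omit [DecidableEq ι] in
lemma finrank_add_perpW :
    Module.finrank F W + Module.finrank F (perpW Q W) = Fintype.card ι := by
  rw [Submodule.finrank_add_eq_of_isCompl (isCompl_perpW hW), Module.finrank_fintype_fun_eq_card]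

omit [DecidableEq ι] in
lemma eq_zero_of_mem_of_mem_perpW {x : ι → F} (h1 : x ∈ W) (h2 : x ∈ perpW Q W) : x = 0 :=
  Submodule.disjoint_def.mp (isCompl_perpW hW).disjoint x h1 h2

omit [DecidableEq ι] in
lemma exists_add_eq (x : ι → F) : ∃ a ∈ W, ∃ p ∈ perpW Q W, x = a + p := by
  obtain ⟨a, ha, p, hp, h⟩ := Submodule.mem_sup.mp
    ((isCompl_perpW hW).sup_eq_top.symm ▸ Submodule.mem_top : x ∈ W ⊔ perpW Q W)
  exact ⟨a, ha, p, hp, h.symm⟩

omit [DecidableEq ι] in
lemma mem_of_forall_perpW (hQ : Nondeg Q) {x : ι → F}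
    (hx : ∀ p ∈ perpW Q W, polar Q x p = 0) : x ∈ W := by
  obtain ⟨a, ha, p, hp, rfl⟩ := exists_add_eq hW x
  have h0 : p = 0 := hQ p fun y => by
    obtain ⟨b, hb, q, hq, rfl⟩ := exists_add_eq hW y
    have h := hx q hq
    rw [polar_add_left, mem_perpW.mp hq a ha, zero_add] at h
    rw [polar_add_right, polar_comm Q p b, mem_perpW.mp hp b hb, h, add_zero]
  rwa [h0, add_zero]

omit [DecidableEq ι] in
lemma perpW_perpW (hQ : Nondeg Q) : perpW Q (perpW Q W) = W :=
  le_antisymm (fun x hx => mem_of_forall_perpW hW hQ fun p hp => by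
    rw [polar_comm]; exact hx p hp)
    fun x hx p hp => by
      show polar Q p x = 0
      rw [polar_comm]; exact hp x hx

omit [DecidableEq ι] in
lemma isNondegenerateOn_perpW (hQ : Nondeg Q) :
    Cfsg.Geo.IsNondegenerateOn (polar (⇑Q)) (perpW Q W) := by
  intro p hp hp0
  have h : ∃ x ∈ perpW Q W, polar Q p x ≠ 0 := by
    by_contra hc
    push Not at hc
    exact hp0 (eq_zero_of_mem_of_mem_perpW hW (mem_of_forall_perpW hW hQ hc) hp)
  obtain ⟨x, hx, hpx⟩ := h
  exact ⟨⟨x, hx, by rwa [polar_comm]⟩, x, hx, hpx⟩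

/-- The orthogonal complement of a non-degenerate subspace, as a section. -/
noncomputable def secW : Sec Q (Module.finrank F W) where
  φ i := polarBilin Q ((Module.finBasis F W i : ι → F))
  π := Submodule.projection (perpW Q W) W (isCompl_perpW hW).symm
  π_mem y i := by
    exact (Submodule.projectionOnto (perpW Q W) W (isCompl_perpW hW).symm y).2 _
      (Module.finBasis F W i).2
  polar_π x y hx := by
    obtain ⟨a, ha, p, hp, rfl⟩ := exists_add_eq hW y
    rw [map_add, Submodule.projection_apply_of_mem_right _ ha, zero_add,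
      show Submodule.projection (perpW Q W) W (isCompl_perpW hW).symm p = p from
        Submodule.projection_apply_left _ ⟨p, hp⟩, polar_add_right]
    suffices h : polar Q x a = 0 by rw [h, zero_add]
    have h0 : ((polarBilin Q x).comp W.subtype) = 0 :=
      (Module.finBasis F W).ext fun i => by
        simpa [polar_comm] using hx i
    exact LinearMap.congr_fun h0 ⟨a, ha⟩

omit [DecidableEq ι] in
lemma mem_secW {x : ι → F} : (secW hW).Mem x ↔ x ∈ perpW Q W := by
  refine ⟨fun hx y hy => ?_, fun hx i => hx _ (Module.finBasis F W i).2⟩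
  have h0 : ((polarBilin Q).flip x).comp W.subtype = 0 :=
    (Module.finBasis F W).ext fun i => hx i
  exact LinearMap.congr_fun h0 ⟨y, hy⟩

omit [DecidableEq ι] in
lemma secW_π_add {a p : ι → F} (ha : a ∈ W) (hp : p ∈ perpW Q W) :
    (secW hW).π (a + p) = p := by
  show Submodule.projection (perpW Q W) W (isCompl_perpW hW).symm (a + p) = p
  rw [map_add, Submodule.projection_apply_of_mem_right _ ha, zero_add]
  exact Submodule.projection_apply_left _ ⟨p, hp⟩

omit [DecidableEq ι] in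
lemma sub_secW_π_mem (x : ι → F) : x - (secW hW).π x ∈ W := by
  obtain ⟨a, ha, p, hp, rfl⟩ := exists_add_eq hW x
  rwa [secW_π_add hW ha hp, add_sub_cancel_right]

lemma inE_ap {h : orth Q} (hh : (secW hW).InE h) {x : ι → F} (hx : x ∈ W) :
    ap (orthToGL Q h) x = x := by
  rw [ap_orthToGL]
  exact hh.2.2 x fun p hp => by
    exact (mem_secW hW).mp hp x hx

lemma inE_mem [Finite F] (hQ : Nondeg Q) (hn : 5 ≤ Fintype.card ι) {h : orth Q}
    (hh : (secW hW).InE h) :
    orthToGL Q h ∈ Cfsg.Geo.subspaceStabilizer W ⊓ Cfsg.Geo.omegaGL (⇑Q) :=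
  ⟨mem_subspaceStabilizer_of_mapsTo _ _ fun x hx => by rw [inE_ap hW hh hx]; exact hx,
    orthToGL_mem_omega' hQ hn hh.1⟩

omit hW in
lemma ap_mem_perpW {g : GL ι F} (hg : g ∈ Cfsg.isometryGroup F (⇑Q))
    (hgW : g ∈ Cfsg.Geo.subspaceStabilizer W) {p : ι → F} (hp : p ∈ perpW Q W) :
    ap g p ∈ perpW Q W := fun y hy => by
  show polar Q y (ap g p) = 0
  rw [← ap_ap_inv g y, polar_ap hg]
  exact hp _ (((mem_subspaceStabilizer_iff _ _).mp (inv_mem hgW) y).mp hy)

lemma stab_perpW_inf (hQ : Nondeg Q) :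
    Cfsg.Geo.subspaceStabilizer (perpW Q W) ⊓ Cfsg.Geo.omegaGL (⇑Q) =
      Cfsg.Geo.subspaceStabilizer W ⊓ Cfsg.Geo.omegaGL (⇑Q) := by
  refine le_antisymm (fun g hg => ⟨mem_subspaceStabilizer_of_mapsTo g W fun x hx => ?_, hg.2⟩)
    fun g hg => ⟨mem_subspaceStabilizer_of_mapsTo g _ fun p hp =>
      ap_mem_perpW (omegaGL_le hg.2) hg.1 hp, hg.2⟩
  rw [← perpW_perpW hW hQ]
  exact ap_mem_perpW (omegaGL_le hg.2) hg.1 (by rw [perpW_perpW hW hQ]; exact hx)

end CfsgLib.Geometric.Orth
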