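import Cfsg.Agent.Lib.Geometric.Orth.Omega

/-!
Stabilisers in `omegaGL` of singular subspaces of dimension one less than maximal, and of pairs of
complementary maximal singular subspaces of odd dimension, are not maximal.
-/

namespace CfsgLib.Geometric.Orth

open Matrix QuadraticMap CfsgLib.Classes

variable {ι : Type} [Fintype ι] [DecidableEq ι] {F : Type*} [Field F]
variable {Q : QuadraticForm F (ι → F)} (hQ : CfsgLib.ClassicalForms.Nondeg Q)
include hQ

lemma exists_eq_polar (φ : (ι → F) →ₗ[F] F) : ∃ w, ∀ x, polar Q x w = φ x := by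
  have hinj : Function.Injective (polarBilin Q) := by
    intro a b hab
    refine sub_eq_zero.mp (hQ _ fun y => ?_)
    rw [polar_sub_left]
    have := LinearMap.congr_fun hab y
    simp only [polarBilin_apply_apply] at this
    rw [this, sub_self]
  obtain ⟨w, hw⟩ := (LinearMap.injective_iff_surjective_of_finrank_eq_finrank
    (Subspace.dual_finrank_eq (K := F) (V := ι → F)).symm).mp hinj φ
  exact ⟨w, fun x => by rw [polar_comm, ← hw]; rfl⟩

lemma exists_polar_sep {U : Submodule F (ι → F)} {x : ι → F} (hx : x ∉ U) :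
    ∃ w, (∀ u ∈ U, polar Q u w = 0) ∧ polar Q x w = 1 := by
  obtain ⟨φ, hφ, hφx⟩ := exists_functional_eq_one hx
  obtain ⟨w, hw⟩ := exists_eq_polar hQ φ
  exact ⟨w, fun u hu => by rw [hw, hφ u hu], by rw [hw, hφx]⟩

lemma exists_polar_pair {u x : ι → F} (hx : x ∉ Submodule.span F {u}) :
    ∃ w, polar Q u w = 0 ∧ polar Q x w = 1 :=
  let ⟨w, h1, h2⟩ := exists_polar_sep hQ hx
  ⟨w, h1 u (Submodule.mem_span_singleton_self u), h2⟩

/-- A singular vector outside a maximal singular subspace. -/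
lemma exists_singular_notMem {U : Submodule F (ι → F)} (hU : IsMaxSingular Q U) {x : ι → F}
    (hx : x ∈ U) (hx0 : x ≠ 0) : ∃ u, Q u = 0 ∧ u ∉ U := by
  obtain ⟨y, -, hy⟩ := exists_polar_sep hQ (U := ⊥) (x := x) (by simpa using hx0)
  refine ⟨y - Q y • x, ?_, fun h => ?_⟩
  · rw [CfsgLib.ClassicalForms.map_sub_eq, QuadraticMap.map_smul, hU.1 x hx, polar_smul_right,
      polar_comm, hy]
    simp
  · have h0 : polar Q x (y - Q y • x) = 0 := hU.pf_eq_zero hx h
    rw [polar_sub_right, polar_smul_right, hy,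
      show polar Q x x = 0 from hU.pf_eq_zero hx hx, smul_zero, sub_zero] at h0
    exact one_ne_zero h0

variable [Finite F]

/-- The stabiliser of a singular subspace of dimension one less than maximal fixes a maximal one. -/
theorem exists_between_subMax (hn : 7 ≤ Fintype.card ι) {U₀ W : Submodule F (ι → F)}
    (hU₀ : IsMaxSingular Q U₀) (hW : ∀ w ∈ W, Q w = 0)
    (hdim : 2 * (Module.finrank F W + 1) = Fintype.card ι) :
    ∃ K : Subgroup (GL ι F), Cfsg.Geo.subspaceStabilizer W ⊓ Cfsg.Geo.omegaGL (⇑Q) < K ∧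
      K < Cfsg.Geo.omegaGL (⇑Q) := by
  have hnd : (polarBilin Q).Nondegenerate := CfsgLib.ClassicalForms.nondeg_iff_polarBilin.mpr hQ
  set O := LinearMap.BilinForm.orthogonal (polarBilin Q) with hO
  have hWW : ∀ v ∈ W, ∀ w ∈ W, polar Q v w = 0 := fun v hv w hw => by
    simp [polar, hW _ (W.add_mem hv hw), hW v hv, hW w hw]
  set X := (U₀ ⊓ O W) ⊔ W with hX
  have hXs : ∀ x ∈ X, Q x = 0 := by
    intro x hx
    obtain ⟨a, ha, w, hw, rfl⟩ := Submodule.mem_sup.mp hx
    rw [QuadraticMap.map_add (⇑Q), hU₀.1 a ha.1, hW w hw, polar_comm,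
      show polar Q w a = 0 from ha.2 w hw]
    simp
  have hXdim : IsMaxSingular Q X := by
    refine ⟨hXs, ?_⟩
    have e : U₀ ⊓ O W = O (U₀ ⊔ W) := by
      conv_lhs => rw [← hU₀.orth_eq_self hnd]
      refine le_antisymm (fun x hx y hy => ?_)
        (le_inf (LinearMap.BilinForm.orthogonal_le le_sup_left)
          (LinearMap.BilinForm.orthogonal_le le_sup_right))
      obtain ⟨y₁, hy₁, y₂, hy₂, rfl⟩ := Submodule.mem_sup.mp hy
      show polarBilin Q (y₁ + y₂) x = 0
      rw [map_add, LinearMap.add_apply, show polarBilin Q y₁ x = 0 from hx.1 y₁ hy₁,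
        show polarBilin Q y₂ x = 0 from hx.2 y₂ hy₂, add_zero]
    have e2 : (U₀ ⊓ O W) ⊓ W = U₀ ⊓ W := le_antisymm (inf_le_inf_right _ inf_le_left)
      (fun x hx => ⟨⟨hx.1, fun w hw => hWW w hw x hx.2⟩, hx.2⟩)
    have h1 := Submodule.finrank_sup_add_finrank_inf_eq (U₀ ⊓ O W) W
    rw [e2, e, hO, LinearMap.BilinForm.finrank_orthogonal hnd, Module.finrank_fintype_fun_eq_card,
      ← hO, ← e, ← hX] at h1
    have h2 := Submodule.finrank_sup_add_finrank_inf_eq U₀ W
    have h3 := hU₀.2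
    have h4 := Submodule.finrank_le (U₀ ⊔ W)
    rw [Module.finrank_fintype_fun_eq_card] at h4
    omega
  have hWX : W ≤ X := le_sup_right
  have hXk : Module.finrank F X = Module.finrank F W + 1 := by
    have := hXdim.2
    omega
  refine ⟨Cfsg.Geo.subspaceStabilizer X ⊓ Cfsg.Geo.omegaGL (⇑Q), ?_, ?_⟩
  · have hle : Cfsg.Geo.subspaceStabilizer W ⊓ Cfsg.Geo.omegaGL (⇑Q) ≤
        Cfsg.Geo.subspaceStabilizer X ⊓ Cfsg.Geo.omegaGL (⇑Q) := by
      rintro g ⟨hgW, hg⟩
      refine ⟨?_, hg⟩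
      set X' := X.map (apEquiv g).toLinearMap with hX'
      have hmax : IsMaxSingular Q X' := by
        refine ⟨?_, by rw [hX', LinearEquiv.finrank_map_eq]; exact hXdim.2⟩
        rintro _ ⟨x, hx, rfl⟩
        rw [LinearEquiv.coe_coe, apEquiv_apply, isometry_of_mem hg]
        exact hXs x hx
      have hWX' : W ≤ X ⊓ X' := fun w hw => ⟨hWX hw,
        ⟨ap g⁻¹ w, hWX (((mem_subspaceStabilizer_iff _ _).mp (inv_mem hgW) w).mp hw),
          ap_ap_inv g w⟩⟩
      have hs : relSign X X' = relSign X X := relSign_map hQ (by omega) hg hXdim hXdim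
      have h1 := Submodule.finrank_mono hWX'
      have h2 := Submodule.finrank_mono (inf_le_left : X ⊓ X' ≤ X)
      have heq : Module.finrank F (X ⊓ X' : Submodule F (ι → F)) = Module.finrank F X := by
        by_contra hne
        have hW' : Module.finrank F (X ⊓ X' : Submodule F (ι → F)) = Module.finrank F W := by omega
        rw [relSign, relSign, inf_idem, hW', hXk, pow_succ, mul_neg_one] at hs
        exact units_ne_neg_self _ hs
      refine mem_subspaceStabilizer_of_mapsTo g X fun x hx => ?_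
      have h3 : X ⊓ X' = X := Submodule.eq_of_le_of_finrank_eq inf_le_left heq
      have h4 : X' = X := (Submodule.eq_of_le_of_finrank_eq (h3 ▸ inf_le_right)
        (by rw [hX', LinearEquiv.finrank_map_eq])).symm
      exact h4 ▸ ⟨x, hx, rfl⟩
    refine lt_of_le_of_ne hle fun he => ?_
    obtain ⟨u, hu, huW⟩ := Set.not_subset.mp (fun h : X ≤ W => by
      have := Submodule.finrank_mono h
      omega)
    obtain ⟨x, hx, hx0⟩ := Submodule.exists_mem_ne_zero_of_ne_bot (p := W) fun h => by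
      rw [h, finrank_bot] at hdim
      omega
    obtain ⟨w, huw, hxw⟩ := exists_polar_pair hQ (u := u) (x := x) fun h => by
      obtain ⟨c, rfl⟩ := Submodule.mem_span_singleton.mp h
      exact huW (by
        have := W.smul_mem c⁻¹ hx
        rwa [smul_smul, inv_mul_cancel₀ (left_ne_zero_of_smul hx0), one_smul] at this)
    have hap : ∀ y ∈ X, ap (sg Q u w (hXs u hu) huw) y = y - polar Q y w • u := fun y hy => by
      rw [ap_sg, show polar Q y u = 0 from hXdim.pf_eq_zero hy hu]
      simp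
    have hm : sg Q u w (hXs u hu) huw ∈
        Cfsg.Geo.subspaceStabilizer W ⊓ Cfsg.Geo.omegaGL (⇑Q) := by
      rw [he]
      exact ⟨mem_subspaceStabilizer_of_mapsTo _ _ fun y hy => by
        rw [hap y hy]; exact X.sub_mem hy (X.smul_mem _ hu), sg_mem hQ (by omega) _ _⟩
    have h : ap (sg Q u w (hXs u hu) huw) x ∈ W :=
      ((mem_subspaceStabilizer_iff _ _).mp hm.1 x).mp hx
    rw [hap x (hWX hx), hxw, one_smul] at h
    exact huW (by simpa using W.sub_mem hx h)
  · refine lt_of_le_of_ne inf_le_right fun he => ?_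
    obtain ⟨x₀, hx₀, hx₀0⟩ := Submodule.exists_mem_ne_zero_of_ne_bot (p := X) fun h => by
      rw [h, finrank_bot] at hXk
      omega
    obtain ⟨u, hu, huX⟩ := exists_singular_notMem hQ hXdim hx₀ hx₀0
    obtain ⟨x, hx, hx0, hxu⟩ : ∃ x ∈ X, x ≠ 0 ∧ polar Q x u = 0 := by
      let Φ : X →ₗ[F] F := ((polarBilin Q).flip u).comp X.subtype
      have h1 := Φ.finrank_range_add_finrank_ker
      have h2 : Module.finrank F (LinearMap.range Φ) ≤ 1 :=
        (Submodule.finrank_le _).trans_eq (Module.finrank_self F)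
      obtain ⟨⟨y, hy⟩, hyk, hy0⟩ := Submodule.exists_mem_ne_zero_of_ne_bot
        (p := LinearMap.ker Φ) fun h => by rw [h, finrank_bot] at h1; omega
      exact ⟨y, hy, fun h => hy0 (Subtype.ext h), hyk⟩
    obtain ⟨w, huw, hxw⟩ := exists_polar_pair hQ (u := u) (x := x) fun h => by
      obtain ⟨c, rfl⟩ := Submodule.mem_span_singleton.mp h
      exact huX (by
        have := X.smul_mem c⁻¹ hx
        rwa [smul_smul, inv_mul_cancel₀ (left_ne_zero_of_smul hx0), one_smul] at this)
    have hm : sg Q u w hu huw ∈ Cfsg.Geo.subspaceStabilizer X ⊓ Cfsg.Geo.omegaGL (⇑Q) := by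
      rw [he]; exact sg_mem hQ (by omega) _ _
    have h : ap (sg Q u w hu huw) x ∈ X := ((mem_subspaceStabilizer_iff _ _).mp hm.1 x).mp hx
    rw [ap_sg, hxu, hxw] at h
    simp at h
    exact huX (by simpa using X.sub_mem hx h)

/-- The stabiliser of a pair of complementary maximal singular subspaces of odd dimension fixes
both. -/
theorem exists_between_pair {k : ℕ} (hk : 2 * k = Fintype.card ι) (hko : Odd k) (hk3 : 3 ≤ k)
    {D : Fin 2 → Submodule F (ι → F)} (hD : Cfsg.Geo.IsMDecomposition k D)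
    (hts : ∀ i, ∀ w ∈ D i, Q w = 0) :
    ∃ K : Subgroup (GL ι F), Cfsg.Geo.decompositionStabilizer D ⊓ Cfsg.Geo.omegaGL (⇑Q) < K ∧
      K < Cfsg.Geo.omegaGL (⇑Q) := by
  have hmax : ∀ i, IsMaxSingular Q (D i) := fun i => ⟨hts i, by rw [hD.finrank_eq i, hk]⟩
  have hinf : D 0 ⊓ D 1 = ⊥ := disjoint_iff.mp (hD.indep.pairwiseDisjoint (by decide))
  have htop : D 0 ⊔ D 1 = ⊤ := by
    rw [← hD.iSup_eq_top]
    refine le_antisymm (sup_le (le_iSup D 0) (le_iSup D 1)) (iSup_le fun i => ?_)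
    fin_cases i
    exacts [le_sup_left, le_sup_right]
  have hdet : ∀ g ∈ Cfsg.Geo.omegaGL (⇑Q), ∀ π : Equiv.Perm (Fin 2),
      (∀ i, (D i).map (Matrix.toLin' (g : Matrix ι ι F)) = D (π i)) → π = 1 := by
    intro g hg π hπ
    by_contra hne
    have h0 : π 0 = 1 := by
      refine Fin.eq_one_of_ne_zero _ fun h => hne (Equiv.ext fun i => ?_)
      rcases Fin.exists_fin_two.mp ⟨i, rfl⟩ with hi | hi
      · subst hi; exact h
      · subst hi
        refine Fin.eq_one_of_ne_zero _ fun h' => ?_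
        exact absurd (π.injective (h'.trans h.symm)) (by decide)
    have h1 : (D 0).map (apEquiv g).toLinearMap = D 1 := h0 ▸ hπ 0
    have hs := relSign_map hQ (by omega) hg (hmax 0) (hmax 0)
    rw [h1, relSign, relSign, inf_idem, hinf, finrank_bot, hD.finrank_eq, hko.neg_one_pow] at hs
    exact absurd hs (by decide)
  -- Siegel elements inside one member
  have moves : ∀ i j : Fin 2, i ≠ j → ∃ g ∈ Cfsg.Geo.omegaGL (⇑Q),
      (∀ x ∈ D i, ap g x = x) ∧ ∃ x ∈ D j, ap g x ∉ D j := by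
    intro i j hij
    obtain ⟨u, hu, hu0⟩ := Submodule.exists_mem_ne_zero_of_ne_bot (p := D i) fun h => by
      have := hD.finrank_eq i
      rw [h, finrank_bot] at this
      omega
    obtain ⟨w, hw, hwn⟩ := Set.not_subset.mp (fun h : D i ≤ Submodule.span F {u} => by
      have := Submodule.finrank_mono h
      rw [hD.finrank_eq i, finrank_span_singleton hu0] at this
      omega)
    have huw : polar Q u w = 0 := (hmax i).pf_eq_zero hu hw
    refine ⟨sg Q u w (hts i u hu) huw, sg_mem hQ (by omega) _ _, fun x hx =>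
      ap_sg_fix _ _ ((hmax i).pf_eq_zero hx hu) ((hmax i).pf_eq_zero hx hw), ?_⟩
    obtain ⟨x, hx, hxu⟩ : ∃ x ∈ D j, polar Q x u ≠ 0 := by
      by_contra hc
      push Not at hc
      refine hu0 (hQ u fun y => ?_)
      have hy : y ∈ D i ⊔ D j := by
        fin_cases i <;> fin_cases j <;> first
          | exact absurd rfl hij
          | exact (htop ▸ Submodule.mem_top : y ∈ D 0 ⊔ D 1)
          | exact (sup_comm (D 1) (D 0) ▸ htop ▸ Submodule.mem_top : y ∈ D 1 ⊔ D 0)
      obtain ⟨a, ha, b, hb, rfl⟩ := Submodule.mem_sup.mp hy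
      rw [polar_add_right, show polar Q u a = 0 from (hmax i).pf_eq_zero hu ha, zero_add,
        polar_comm, hc b hb]
    refine ⟨x, hx, fun h => ?_⟩
    rw [ap_sg] at h
    have h2 := (D j).sub_mem h hx
    have h3 : polar Q x u • w - (polar Q x w + Q w * polar Q x u) • u ∈ D i :=
      (D i).sub_mem ((D i).smul_mem _ hw) ((D i).smul_mem _ hu)
    have h4 : polar Q x u • w - (polar Q x w + Q w * polar Q x u) • u = 0 := by
      have hd : Disjoint (D i) (D j) := hD.indep.pairwiseDisjoint hij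
      refine Submodule.disjoint_def.mp hd _ h3 ?_
      convert h2 using 1
      abel
    apply hwn
    refine Submodule.mem_span_singleton.mpr
      ⟨(polar Q x u)⁻¹ * (polar Q x w + Q w * polar Q x u), ?_⟩
    rw [mul_smul, ← sub_eq_zero.mp h4, smul_smul, inv_mul_cancel₀ hxu, one_smul]
  refine ⟨Cfsg.Geo.subspaceStabilizer (D 0) ⊓ Cfsg.Geo.omegaGL (⇑Q), ?_, ?_⟩
  · have hle : Cfsg.Geo.decompositionStabilizer D ⊓ Cfsg.Geo.omegaGL (⇑Q) ≤
        Cfsg.Geo.subspaceStabilizer (D 0) ⊓ Cfsg.Geo.omegaGL (⇑Q) := by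
      rintro g ⟨⟨π, hπ⟩, hg⟩
      refine ⟨mem_subspaceStabilizer_of_mapsTo g _ fun x hx => ?_, hg⟩
      have h := hπ 0
      rw [hdet g hg π hπ] at h
      exact h.le ⟨x, hx, rfl⟩
    refine lt_of_le_of_ne hle fun he => ?_
    obtain ⟨g, hg, hfix, x, hx, hxn⟩ := moves 0 1 (by decide)
    have hm : g ∈ Cfsg.Geo.decompositionStabilizer D ⊓ Cfsg.Geo.omegaGL (⇑Q) := by
      rw [he]; exact ⟨mem_subspaceStabilizer_of_mapsTo g _ fun y hy => by rw [hfix y hy]; exact hy, hg⟩
    obtain ⟨π, hπ⟩ := hm.1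
    have h := hπ 1
    rw [hdet g hg π hπ] at h
    exact hxn (h.le ⟨x, hx, rfl⟩)
  · refine lt_of_le_of_ne inf_le_right fun he => ?_
    obtain ⟨g, hg, -, x, hx, hxn⟩ := moves 1 0 (by decide)
    have hm : g ∈ Cfsg.Geo.subspaceStabilizer (D 0) ⊓ Cfsg.Geo.omegaGL (⇑Q) := by
      rw [he]; exact hg
    exact hxn (((mem_subspaceStabilizer_iff _ _).mp hm.1 x).mp hx)

end CfsgLib.Geometric.Orth
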