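import Cfsg.Agent.Lib.Geometric.Orth.Full

/-!
Stabilisers in `omegaGL` of totally singular subspaces are maximal, apart from the dimension one
less than half in a space of plus type.
-/

namespace CfsgLib.Geometric.Orth

open Matrix QuadraticMap CfsgLib.ClassicalForms

variable {ι : Type} [Fintype ι] [DecidableEq ι] {F : Type*} [Field F]
variable {Q : QuadraticForm F (ι → F)}

omit [Fintype ι] [DecidableEq ι] in
lemma polar_eq_zero_of_singular {W : Submodule F (ι → F)} (hW : ∀ w ∈ W, Q w = 0) {a b : ι → F}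
    (ha : a ∈ W) (hb : b ∈ W) : polar Q a b = 0 := by
  simp [polar, hW _ (W.add_mem ha hb), hW a ha, hW b hb]

omit [DecidableEq ι] in
lemma two_finrank_le_of_singular (hQ : Nondeg Q) {W : Submodule F (ι → F)}
    (hW : ∀ w ∈ W, Q w = 0) : 2 * Module.finrank F W ≤ Fintype.card ι := by
  have hnd : (polarBilin Q).Nondegenerate := nondeg_iff_polarBilin.mpr hQ
  have h1 : W ≤ LinearMap.BilinForm.orthogonal (polarBilin Q) W := fun x hx y hy =>
    polar_eq_zero_of_singular hW hy hx
  have h2 := Submodule.finrank_mono h1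
  rw [LinearMap.BilinForm.finrank_orthogonal hnd, Module.finrank_fintype_fun_eq_card] at h2
  omega

/-- The stabiliser in `omegaGL` of a non-zero totally singular subspace is maximal, unless its
dimension is one less than half and the form has plus type. -/
theorem singular_stab_isMaximalIn [Finite F] (hQ : Nondeg Q) (hn : 7 ≤ Fintype.card ι)
    {W : Submodule F (ι → F)} (hW0 : W ≠ ⊥) (hW : ∀ w ∈ W, Q w = 0)
    (hex : 2 * (Module.finrank F W + 1) = Fintype.card ι →
      ∀ U : Submodule F (ι → F), (∀ x ∈ U, Q x = 0) → 2 * Module.finrank F U ≠ Fintype.card ι) :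
    Cfsg.Geo.IsMaximalIn (Cfsg.Geo.omegaGL (⇑Q))
      (Cfsg.Geo.subspaceStabilizer W ⊓ Cfsg.Geo.omegaGL (⇑Q)) := by
  obtain ⟨x₀, hx₀, hx₀0⟩ := Submodule.exists_mem_ne_zero_of_ne_bot hW0
  refine ⟨lt_of_le_of_ne inf_le_right fun he => ?_, fun M hHM hMS => ?_⟩
  · obtain ⟨u, -, hu⟩ := (Sec.top Q).exists_partner hQ (Sec.mem_top x₀) (hW _ hx₀) hx₀0
    obtain ⟨w, hw, hQw⟩ := exists_mem_ne_zero_value
      ((Sec.top Q).cut x₀ u (Sec.mem_top x₀) (Sec.mem_top u) hu) hQ
      (by rw [Module.finrank_fintype_fun_eq_card]; omega)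
    obtain ⟨hxw, huw, -⟩ := (Sec.mem_cut_iff _ _ _ hu w).1 hw
    obtain ⟨-, hQu, hxu⟩ := hu
    have hm : sg Q u w hQu huw ∈ Cfsg.Geo.subspaceStabilizer W ⊓ Cfsg.Geo.omegaGL (⇑Q) := by
      rw [he]; exact sg_mem hQ (by omega) _ _
    have h : ap (sg Q u w hQu huw) x₀ ∈ W :=
      ((mem_subspaceStabilizer_iff _ _).mp hm.1 x₀).mp hx₀
    rw [ap_sg, hxu, hxw, one_smul, zero_add, mul_one] at h
    have h' : w - Q w • u ∈ W := by
      convert W.sub_mem h hx₀ using 1
      abel
    have h2 := hW _ h'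
    rw [CfsgLib.ClassicalForms.map_sub_eq, QuadraticMap.map_smul, hQu, polar_smul_right,
      polar_comm Q w u, huw] at h2
    exact hQw (by simpa using h2)
  by_cases hM : M ≤ Cfsg.Geo.subspaceStabilizer W
  · exact Or.inl (le_antisymm (le_inf hM hMS) hHM)
  refine Or.inr (le_antisymm hMS ?_)
  have hMI : M ≤ Cfsg.isometryGroup F (⇑Q) := hMS.trans omegaGL_le
  have hfull : ∀ u ∈ W, Full Q M u := fun u hu hQu w hw => by
    refine hHM ⟨mem_subspaceStabilizer_of_mapsTo _ _ fun x hx => ?_, sg_mem hQ (by omega) _ _⟩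
    rw [ap_sg, polar_eq_zero_of_singular hW hx hu, zero_smul, add_zero]
    exact W.sub_mem hx (W.smul_mem _ hu)
  obtain ⟨g, hgM, hg⟩ := SetLike.not_le_iff_exists.mp hM
  obtain ⟨x, hx, hxg⟩ : ∃ x ∈ W, ap g x ∉ W := by
    by_contra hc
    push Not at hc
    exact hg (mem_subspaceStabilizer_of_mapsTo g W hc)
  set u₀ := ap g x with hu₀def
  have hu₀ : Full Q M u₀ := (hfull x hx).ap hMI hgM
  have hQu₀ : Q u₀ = 0 := by rw [hu₀def, mem_isometryGroup_iff.mp (hMI hgM)]; exact hW x hx
  by_cases hp : ∀ y ∈ W, polar Q y u₀ = 0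
  swap
  · push Not at hp
    obtain ⟨y, hy, hyu⟩ := hp
    exact Full.le_of_pair hQ (by omega) hMI (hfull y hy) hu₀ (hW y hy) hQu₀ hyu
  obtain ⟨w₁, hw₁, hw₁u⟩ := exists_polar_sep hQ hxg
  set z := w₁ - Q w₁ • u₀ with hzdef
  have hQz : Q z = 0 := by
    rw [hzdef, CfsgLib.ClassicalForms.map_sub_eq, QuadraticMap.map_smul, polar_smul_right, hQu₀,
      polar_comm Q w₁, hw₁u]
    simp
  have hzW : ∀ y ∈ W, polar Q y z = 0 := fun y hy => by
    rw [hzdef, polar_sub_right, polar_smul_right, hp y hy, hw₁ y hy, smul_zero, sub_zero]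
  have huz : polar Q u₀ z = 1 := by
    rw [hzdef, polar_sub_right, polar_smul_right, polar_self_mul, hQu₀, hw₁u]
    simp
  obtain ⟨w, hwW, hzw, hQw⟩ : ∃ w, (∀ y ∈ W, polar Q y w = 0) ∧ polar Q z w = 0 ∧ Q w ≠ 0 := by
    by_contra hc
    push Not at hc
    have hnd : (polarBilin Q).Nondegenerate := nondeg_iff_polarBilin.mpr hQ
    set T := W ⊔ Submodule.span F {z} with hT
    set U := LinearMap.BilinForm.orthogonal (polarBilin Q) T with hU
    have hzW' : z ∉ W := fun h => by
      rw [polar_comm, hp z h] at huz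
      exact one_ne_zero huz.symm
    have hTdim : Module.finrank F T = Module.finrank F W + 1 := by
      have h1 := Submodule.finrank_sup_add_finrank_inf_eq W (Submodule.span F {z})
      have h2 : W ⊓ Submodule.span F {z} = ⊥ := by
        rw [eq_bot_iff]
        rintro a ⟨ha, ha'⟩
        obtain ⟨c, rfl⟩ := Submodule.mem_span_singleton.mp ha'
        by_contra hne
        have hc0 : c ≠ 0 := fun h => hne (by simp [h])
        exact hzW' (by simpa [smul_smul, inv_mul_cancel₀ hc0] using W.smul_mem c⁻¹ ha)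
      rw [h2, finrank_bot, add_zero, finrank_span_singleton
        (fun h : z = 0 => hzW' (by rw [h]; exact W.zero_mem))] at h1
      exact h1
    have hUs : ∀ a ∈ U, Q a = 0 := fun a ha => by
      refine hc a (fun y hy => ha y (Submodule.mem_sup_left hy)) ?_
      exact ha z (Submodule.mem_sup_right (Submodule.mem_span_singleton_self z))
    have hTs : ∀ a ∈ T, Q a = 0 := by
      intro a ha
      obtain ⟨y, hy, b, hb, rfl⟩ := Submodule.mem_sup.mp ha
      obtain ⟨c, rfl⟩ := Submodule.mem_span_singleton.mp hb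
      rw [QuadraticMap.map_add (⇑Q), hW y hy, QuadraticMap.map_smul, hQz, polar_smul_right,
        hzW y hy]
      simp
    have hUdim : Module.finrank F U = Fintype.card ι - Module.finrank F T := by
      rw [hU, LinearMap.BilinForm.finrank_orthogonal hnd, Module.finrank_fintype_fun_eq_card]
    have h3 := two_finrank_le_of_singular hQ hUs
    have h4 := two_finrank_le_of_singular hQ hTs
    exact hex (by omega) U hUs (by omega)
  have hH : sg Q z w hQz hzw ∈ Cfsg.Geo.subspaceStabilizer W ⊓ Cfsg.Geo.omegaGL (⇑Q) :=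
    ⟨mem_subspaceStabilizer_of_mapsTo _ _ fun y hy => by
      rw [ap_sg_fix hQz hzw (hzW y hy) (hwW y hy)]; exact hy, sg_mem hQ (by omega) _ _⟩
  refine Full.le_of_pair hQ (by omega) hMI hu₀ (hu₀.ap hMI (hHM hH)) hQu₀
    (by rw [mem_isometryGroup_iff.mp (hMI (hHM hH))]; exact hQu₀) ?_
  rw [ap_sg, polar_sub_right, polar_add_right, polar_smul_right, polar_smul_right, polar_self_mul,
    hQu₀, huz]
  simpa using hQw

end CfsgLib.Geometric.Orth
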